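import Mathlib
import Cfsg.Agent.Lib.PiwekK.Core
import Cfsg.Agent.Lib.PiwekK.Graph
import Cfsg.Prelude.Def_Transfer

/-!
Abstract lemmas for the quotient of a Sylow subgroup by its centre: maximal subgroups and unique abelian subgroups.
-/

set_option autoImplicit false

namespace Cfsg.Agent.Lib.PiwekK

open Equiv

section codes

variable {m : ℕ}

theorem mem_of_memT (hm : m ≤ 1024) {gA : List ℕ} (hvA : ∀ g ∈ gA, validB m g = true) {x : Perm (Fin m)}
    (h : memT (code x) (elemsT m gA) = true) : x ∈ grp m gA := by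
  obtain ⟨τ, hτ, he⟩ := elems_reach hm hvA _ (memT_sound _ _ h)
  rwa [← code_injective hm he]

theorem card_le_of_code {C : Type*} (hm : m ≤ 1024) (ι : C → Perm (Fin m)) (hι : Function.Injective ι) (L : List ℕ)
    (h : ∀ x, code (ι x) ∈ L) : Nat.card C ≤ L.length := by
  classical
  have hf : Function.Injective (fun x : C => (⟨code (ι x), List.mem_toFinset.mpr (h x)⟩ : {c // c ∈ L.toFinset})) :=
    fun a b hab => hι (code_injective hm (congrArg Subtype.val hab))
  calc Nat.card C ≤ Nat.card {c // c ∈ L.toFinset} := Nat.card_le_card_of_injective _ hf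
    _ = L.toFinset.card := Nat.card_eq_fintype_card.trans (Fintype.card_coe _)
    _ ≤ L.length := List.toFinset_card_le L

end codes

section abstract

variable {G : Type*} [Group G] [Finite G]

theorem index_two_of_coatom {k : ℕ} (hG : Nat.card G = 2 ^ k) {M : Subgroup G} (hM : IsCoatom M) : M.index = 2 := by
  have hd : Nat.card M ∣ 2 ^ k := hG ▸ Subgroup.card_subgroup_dvd_card M
  obtain ⟨n, hn, hcard⟩ := (Nat.dvd_prime_pow Nat.prime_two).1 hd
  have hlt : n < k := by
    rcases lt_or_eq_of_le hn with h | h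
    · exact h
    · exfalso
      apply hM.1
      apply Subgroup.eq_top_of_card_eq
      rw [hcard, hG, h]
  obtain ⟨K, hK, hle⟩ := Sylow.exists_subgroup_card_pow_succ (p := 2) (n := n)
    (by rw [hG]; exact pow_dvd_pow 2 hlt) hcard
  have hlt2 : M < K := by
    refine lt_of_le_of_ne hle ?_
    intro h
    rw [h, hK] at hcard
    have := Nat.pow_right_injective (le_refl 2) hcard
    omega
  have htop : K = ⊤ := hM.2 K hlt2
  have hc : Nat.card G = 2 ^ (n + 1) := by
    rw [← hK, htop]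
    exact Subgroup.card_top.symm
  have h2 := Subgroup.card_mul_index M
  rw [hcard, hc, pow_succ] at h2
  exact Nat.eq_of_mul_eq_mul_left (by positivity) h2

theorem center_coatom_le {k : ℕ} (hG : Nat.card G = 2 ^ k) (L : Set G) (hL : Nat.card L ≤ 12)
    (h : ∀ x, x ∉ L → ∃ a b : G, a * x ≠ x * a ∧ b * x ≠ x * b ∧ (a * b) * x ≠ x * (a * b))
    {M : Subgroup G} (hM : IsCoatom M) : Nat.card (Subgroup.center M) ≤ 8 := by
  have hi := index_two_of_coatom hG hM
  have hmem : ∀ z : Subgroup.center M, ((z : M) : G) ∈ L := by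
    intro z
    by_contra hz
    obtain ⟨a, b, ha, hb, hab⟩ := h _ hz
    have key : ∀ y ∈ M, y * ((z : M) : G) = ((z : M) : G) * y := by
      intro y hy
      have := (Subgroup.mem_center_iff.mp z.2) ⟨y, hy⟩
      exact congrArg Subtype.val this
    have ha' : a ∉ M := fun h' => ha (key a h')
    have hb' : b ∉ M := fun h' => hb (key b h')
    have hab' : a * b ∈ M := by
      rw [Subgroup.mul_mem_iff_of_index_two hi]
      exact iff_of_false ha' hb'
    exact hab (key _ hab')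
  have h1 : Nat.card (Subgroup.center M) ≤ Nat.card L := by
    apply Nat.card_le_card_of_injective (fun z : Subgroup.center M => (⟨((z : M) : G), hmem z⟩ : L))
    intro x y hxy
    have h' : ((x : M) : G) = ((y : M) : G) := congrArg (fun w : L => (w : G)) hxy
    exact Subtype.ext (Subtype.ext h')
  have hd : Nat.card (Subgroup.center M) ∣ 2 ^ k := by
    rw [← hG]
    exact (Subgroup.card_subgroup_dvd_card (Subgroup.center M)).trans (Subgroup.card_subgroup_dvd_card M)
  obtain ⟨n, -, hcard⟩ := (Nat.dvd_prime_pow Nat.prime_two).1 hd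
  have h2 : Nat.card (Subgroup.center M) ≤ 12 := h1.trans hL
  rw [hcard] at h2 ⊢
  have hn : n ≤ 3 := by
    by_contra hn
    have : 2 ^ 4 ≤ 2 ^ n := Nat.pow_le_pow_right (by norm_num) (by omega)
    omega
  calc 2 ^ n ≤ 2 ^ 3 := Nat.pow_le_pow_right (by norm_num) hn
    _ = 8 := by norm_num

theorem uniq_abelian (A : Subgroup G) [A.Normal] (hAc : ∀ a ∈ A, ∀ b ∈ A, a * b = b * a) (hA : Nat.card A = 64)
    (hG : Nat.card G = 512) (R : Set G) (hR : ∀ x, x ∉ A → ∃ r ∈ R, r⁻¹ * x ∈ A)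
    (h16 : ∀ r ∈ R, ∀ C : Subgroup G, C ≤ A → (∀ c ∈ C, c * r = r * c) → Nat.card C ≤ 16)
    (h8 : ∀ r ∈ R, ∀ s ∈ R, r ≠ s → ∀ C : Subgroup G, C ≤ A → (∀ c ∈ C, c * r = r * c ∧ c * s = s * c) → Nat.card C ≤ 8)
    (r₀ : G) (h4 : ∀ C : Subgroup G, C ≤ A → (∀ c ∈ C, c * r₀ = r₀ * c) → Nat.card C ≤ 4)
    (B : Subgroup G) (hBc : ∀ a ∈ B, ∀ b ∈ B, a * b = b * a) (hB : Nat.card B = 64) : B = A := by
  classical
  let C : Subgroup G := B ⊓ A
  let φ : B →* G ⧸ A := (QuotientGroup.mk' A).comp B.subtype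
  have hφ : ∀ x : B, φ x = 1 ↔ (x : G) ∈ A := fun x => QuotientGroup.eq_one_iff _
  have hker : Nat.card φ.ker = Nat.card C := Nat.card_congr
    ⟨fun x => ⟨x.1.1, x.1.2, (hφ x.1).1 x.2⟩, fun c => ⟨⟨c.1, c.2.1⟩, (hφ _).2 c.2.2⟩, fun _ => rfl, fun _ => rfl⟩
  have hcard : Nat.card C * Nat.card φ.range = 64 := by
    rw [← hker, ← hB, ← Subgroup.index_ker]
    exact Subgroup.card_mul_index φ.ker
  have hq : Nat.card (G ⧸ A) = 8 := by
    have h2 := Subgroup.card_mul_index A
    rw [hA, hG] at h2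
    have h3 : A.index = 8 := by omega
    exact h3
  have hrd : Nat.card φ.range ∣ 2 ^ 3 := by
    have := Subgroup.card_subgroup_dvd_card φ.range
    rwa [hq] at this
  have hle8 : Nat.card φ.range ≤ 8 := Nat.le_of_dvd (by norm_num) hrd
  -- the key lemma
  have key : ∀ x ∈ B, ∀ r : G, r⁻¹ * x ∈ A → ∀ c ∈ C, c * r = r * c := by
    intro x hx r hr c hc
    have e : r = x * (r⁻¹ * x)⁻¹ := by group
    have h1 : c * x = x * c := hBc c hc.1 x hx
    have h2 : c * (r⁻¹ * x)⁻¹ = (r⁻¹ * x)⁻¹ * c := hAc c hc.2 _ (A.inv_mem hr)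
    rw [e]
    calc c * (x * (r⁻¹ * x)⁻¹) = (c * x) * (r⁻¹ * x)⁻¹ := by rw [mul_assoc]
      _ = x * (c * (r⁻¹ * x)⁻¹) := by rw [h1, mul_assoc]
      _ = x * ((r⁻¹ * x)⁻¹ * c) := by rw [h2]
      _ = _ := by rw [mul_assoc]
  have hCA : C ≤ A := inf_le_right
  by_contra hne
  have hnle : ¬ B ≤ A := by
    intro hle
    exact hne (Subgroup.eq_of_le_of_card_ge hle (by rw [hA, hB]))
  obtain ⟨x₀, hx₀, hx₀A⟩ := SetLike.not_le_iff_exists.mp hnle
  obtain ⟨r₁, hr₁, hr₁x⟩ := hR x₀ hx₀A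
  have hc16 : Nat.card C ≤ 16 := h16 r₁ hr₁ C hCA (key x₀ hx₀ r₁ hr₁x)
  have hr4 : 4 ≤ Nat.card φ.range := by
    by_contra h
    have : Nat.card φ.range ≤ 3 := by omega
    have h3 : Nat.card C * Nat.card φ.range ≤ 16 * 3 := Nat.mul_le_mul hc16 this
    omega
  haveI : Fintype φ.range := Fintype.ofFinite _
  have h2c : 2 < Fintype.card φ.range := by
    rw [← Nat.card_eq_fintype_card]
    omega
  obtain ⟨a, b, c, hab, hac, hbc⟩ := Fintype.two_lt_card_iff.mp h2c
  -- two distinct non-trivial elements of the range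
  have hex : ∃ u v : φ.range, u ≠ 1 ∧ v ≠ 1 ∧ u ≠ v := by
    by_cases ha : a = 1
    · exact ⟨b, c, fun h => hab (ha.trans h.symm), fun h => hac (ha.trans h.symm), hbc⟩
    · by_cases hb' : b = 1
      · exact ⟨a, c, ha, fun h => hbc (hb'.trans h.symm), hac⟩
      · exact ⟨a, b, ha, hb', hab⟩
  obtain ⟨⟨u, x, rfl⟩, ⟨v, y, rfl⟩, hu, hv, huv⟩ := hex
  have hxA : (x : G) ∉ A := fun h => hu (Subtype.ext ((hφ x).2 h))
  have hyA : (y : G) ∉ A := fun h => hv (Subtype.ext ((hφ y).2 h))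
  obtain ⟨r, hr, hrx⟩ := hR x hxA
  obtain ⟨s, hs, hsy⟩ := hR y hyA
  have hrs : r ≠ s := by
    rintro rfl
    apply huv
    apply Subtype.ext
    show φ x = φ y
    have h5 : (x : G)⁻¹ * y ∈ A := by
      have : (x : G)⁻¹ * y = (r⁻¹ * x)⁻¹ * (r⁻¹ * y) := by group
      rw [this]
      exact A.mul_mem (A.inv_mem hrx) hsy
    exact QuotientGroup.eq.mpr h5
  have hc8 : Nat.card C ≤ 8 := h8 r hr s hs hrs C hCA
    (fun c hc => ⟨key x x.2 r hrx c hc, key y y.2 s hsy c hc⟩)
  have hr8 : Nat.card φ.range = 8 := by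
    apply le_antisymm hle8
    by_contra h
    have : Nat.card φ.range ≤ 7 := by omega
    have h3 : Nat.card C * Nat.card φ.range ≤ 8 * 7 := Nat.mul_le_mul hc8 this
    omega
  have htop : φ.range = ⊤ := Subgroup.eq_top_of_card_eq _ (by rw [hr8, hq])
  have hmem : (QuotientGroup.mk r₀ : G ⧸ A) ∈ φ.range := by
    rw [htop]
    exact Subgroup.mem_top _
  obtain ⟨w, hw⟩ := hmem
  have hw' : r₀⁻¹ * (w : G) ∈ A := QuotientGroup.eq.mp hw.symm
  have hc4 : Nat.card C ≤ 4 := h4 C hCA (key w w.2 r₀ hw')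
  have h3 : Nat.card C * Nat.card φ.range ≤ 4 * 8 := Nat.mul_le_mul hc4 hle8
  omega

/-- A surjection with a kernel of order two and a centre of order at most two. -/
theorem quot_center_equiv {K : Type*} [Group K] (f : G →* K) (hf : Function.Surjective f)
    (hc : Nat.card G = 2 * Nat.card K) (hZ : Nat.card (Subgroup.center G) ≤ 2) :
    Nonempty ((G ⧸ Subgroup.center G) ≃* K) := by
  haveI : Finite K := Finite.of_surjective _ hf
  have hkpos : 0 < Nat.card K := Nat.card_pos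
  have hk : Nat.card f.ker = 2 := by
    have h1 : f.ker.index = Nat.card K := by
      rw [Subgroup.index_ker, MonoidHom.range_eq_top.mpr hf]
      exact Subgroup.card_top
    have h2 := Subgroup.card_mul_index f.ker
    rw [h1, hc] at h2
    exact Nat.eq_of_mul_eq_mul_right hkpos h2
  have huniq : ∀ x ∈ f.ker, ∀ y ∈ f.ker, x ≠ 1 → y ≠ 1 → x = y := by
    intro x hx y hy hx1 hy1
    obtain ⟨w, -, hw⟩ := (Nat.card_eq_two_iff' (1 : f.ker)).mp hk
    have e1 := hw ⟨x, hx⟩ (fun h => hx1 (congrArg Subtype.val h))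
    have e2 := hw ⟨y, hy⟩ (fun h => hy1 (congrArg Subtype.val h))
    exact congrArg Subtype.val (e1.trans e2.symm)
  have hle : f.ker ≤ Subgroup.center G := by
    intro x hx
    by_cases hx1 : x = 1
    · rw [hx1]
      exact Subgroup.one_mem _
    rw [Subgroup.mem_center_iff]
    intro g
    have h1 : g * x * g⁻¹ ∈ f.ker := f.normal_ker.conj_mem x hx g
    have h2 : g * x * g⁻¹ ≠ 1 := by
      intro h
      apply hx1
      have := congrArg (fun t => g⁻¹ * t * g) h
      simpa [mul_assoc] using this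
    have h3 := huniq _ h1 _ hx h2 hx1
    rw [mul_inv_eq_iff_eq_mul] at h3
    exact h3
  have heq : f.ker = Subgroup.center G := Subgroup.eq_of_le_of_card_ge hle (by rw [hk]; exact hZ)
  exact ⟨(QuotientGroup.quotientMulEquivOfEq heq.symm).trans (QuotientGroup.quotientKerEquivOfSurjective f hf)⟩

end abstract

/-- The three properties of the statement. -/
def GoodS (H : Type*) [Group H] : Prop :=
  (∀ M : Subgroup H, IsCoatom M → Nat.card ↥(Subgroup.center ↥M) ≤ 8) ∧
    (∃ A : Subgroup H, Cfsg.IsElementaryAbelian 2 A ∧ Nat.card ↥A = 64) ∧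
    ∀ A B : Subgroup H, IsMulCommutative ↥A → Nat.card ↥A = 64 → IsMulCommutative ↥B → Nat.card ↥B = 64 → A = B

theorem mulComm_map {H H' : Type*} [Group H] [Group H'] (e : H ≃* H') (A : Subgroup H) (h : IsMulCommutative ↥A) :
    IsMulCommutative ↥(A.map e.toMonoidHom) := by
  refine ⟨⟨?_⟩⟩
  rintro ⟨_, a, ha, rfl⟩ ⟨_, b, hb, rfl⟩
  apply Subtype.ext
  show e a * e b = e b * e a
  rw [← map_mul, ← map_mul]
  have := h.is_comm.comm ⟨a, ha⟩ ⟨b, hb⟩
  rw [show a * b = b * a from congrArg Subtype.val this]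

theorem goodS_transfer {H H' : Type*} [Group H] [Group H'] (e : H ≃* H') (h : GoodS H) : GoodS H' := by
  obtain ⟨h1, ⟨A, ⟨hAc, hA2⟩, hA⟩, h3⟩ := h
  refine ⟨?_, ?_, ?_⟩
  · intro M hM
    let M₀ : Subgroup H := M.map e.symm.toMonoidHom
    have hM₀ : IsCoatom M₀ := (OrderIso.isCoatom_iff (e.symm.mapSubgroup) M).mpr hM
    have e₁ : M ≃* M₀ := e.symm.subgroupMap M
    rw [Nat.card_congr (Subgroup.centerCongr e₁).toEquiv]
    exact h1 M₀ hM₀
  · refine ⟨A.map e.toMonoidHom, ⟨mulComm_map e A hAc, ?_⟩, ?_⟩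
    · rintro _ ⟨a, ha, rfl⟩
      show (e a) ^ 2 = 1
      rw [← map_pow, hA2 a ha, map_one]
    · rw [← hA]
      exact (Nat.card_congr (e.subgroupMap A).toEquiv).symm
  · intro A' B' hA' hA'c hB' hB'c
    have hinj : Function.Injective (Subgroup.map e.symm.toMonoidHom) := Subgroup.map_injective e.symm.injective
    apply hinj
    refine h3 _ _ (mulComm_map e.symm A' hA') ?_ (mulComm_map e.symm B' hB') ?_
    · rw [← hA'c]
      exact (Nat.card_congr (e.symm.subgroupMap A').toEquiv).symm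
    · rw [← hB'c]
      exact (Nat.card_congr (e.symm.subgroupMap B').toEquiv).symm

end Cfsg.Agent.Lib.PiwekK
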